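import Cfsg.Agent.H125.Hall.E6Base

/-!
# S2223, E-5: elements of the twisted group `Z2` on the 27-dimensional module (helper442)

* `frame_mem_Z2` : root elements over the fixed field for 16 of the roots fixed by the graph automorphism;
* `torus_mem_Z2` : torus elements.
-/

set_option autoImplicit false

namespace Cfsg.Agent.H442.Hall.E6Z2

open Subgroup Cfsg.Lie Cfsg.Agent.H125.Hall.E6
  Cfsg.Agent.ChevalleyStructure.E6Min.Tables Cfsg.Agent.ChevalleyStructure.E6Min.Basic
  Cfsg.Agent.ChevalleyStructure.E6Min.Torus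
open scoped Matrix

section
variable {K : Type*} [Field K]

/-! ### commutation of root elements -/

theorem zM_Nm_none {a r : ℕ} (ha : a < 72) (hr : r < 72) (h : r + a ≠ 71) (hk : kN a r = 127) (t : K) :
    zM a t * Nm K r = Nm K r * zM a t := by
  rw [zM_def, add_mul, one_mul, mul_add, mul_one, smul_mul_assoc, mul_smul_comm, Nm_comm_of_none ha hr h hk]

theorem zM_Nm_some {a r : ℕ} (ha : a < 72) (hr : r < 72) (h : r + a ≠ 71) (hk : kN a r ≠ 127) (t : K) :
    zM a t * Nm K r = (Nm K r + (((cN a r : ℤ) : K) * t) • Nm K (kN a r)) * zM a t := by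
  have h1 := Nm_comm_of_some (F := K) ha hr h hk
  have h2 := Nm_mul_eq_zero_of_sum (F := K) ha hr h hk
  rw [zM_def, add_mul, one_mul, add_mul, mul_add, mul_add, mul_one, mul_one, smul_mul_assoc, smul_mul_assoc,
    mul_smul_comm, mul_smul_comm, h2, smul_zero, smul_zero, add_zero,
    show Nm K a * Nm K r = Nm K r * Nm K a + ((cN a r : ℤ) : K) • Nm K (kN a r) by rw [← h1]; abel, smul_add,
    smul_smul, mul_comm t]
  abel

theorem zU_comm {a r : ℕ} (ha : a < 72) (hr : r < 72) (h : r + a ≠ 71) (hk : kN a r = 127) (t u : K) :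
    zU a t * zU r u = zU r u * zU a t := by
  apply Units.ext
  rw [Units.val_mul, Units.val_mul, coe_zU ha, coe_zU hr, zM_def r, mul_add, add_mul, mul_one, one_mul,
    mul_smul_comm, smul_mul_assoc, zM_Nm_none ha hr h hk]

theorem zU_add {r : ℕ} (hr : r < 72) (t u : K) : zU r t * zU r u = zU r (t + u) := by
  apply Units.ext
  rw [Units.val_mul, coe_zU hr, coe_zU hr, coe_zU hr, zM_mul hr]

theorem zU_zero {r : ℕ} (hr : r < 72) : zU r (0 : K) = 1 := by
  apply Units.ext
  rw [coe_zU hr, zM_zero, Units.val_one]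

theorem zU_inv {r : ℕ} (hr : r < 72) (t : K) : (zU r t)⁻¹ = zU r (-t) := by
  rw [inv_eq_iff_mul_eq_one, zU_add hr, add_neg_cancel, zU_zero hr]

theorem zU_pow {r : ℕ} (hr : r < 72) (t : K) (n : ℕ) : (zU r t) ^ n = zU r ((n : K) * t) := by
  induction n with
  | zero => rw [pow_zero, Nat.cast_zero, zero_mul, zU_zero hr]
  | succ n ih =>
    rw [pow_succ, ih, zU_add hr]
    congr 1
    push_cast; ring

/-- `n_a(1)` -/
def nU (a : ℕ) : GL I27 K := zU a 1 * zU (71 - a) (-1) * zU a 1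

/-- `a + r` is a root and `a`, `r` generate a system of type `A₂`, with the right signs -/
def good (a r : ℕ) : Bool :=
  Nat.blt a 72 && Nat.blt r 72 && !(r + a == 71) && !(kN a r == 127) && Nat.blt (kN a r) 72 && (kN (71 - a) r == 127) &&
    !(r + (71 - a) == 71) && (kN (71 - a) (kN a r) == r) && (cN (71 - a) (kN a r) * cN a r == 1) &&
    (kN a (kN a r) == 127) && !(kN a r + a == 71) && !(kN a r + (71 - a) == 71)

theorem nU_mul {a r : ℕ} (h : good a r = true) (t : K) :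
    nU a * zU r t = zU (kN a r) (((cN a r : ℤ) : K) * t) * nU a := by
  unfold good at h
  simp only [Bool.and_eq_true, Nat.blt_eq, Bool.not_eq_true', beq_eq_false_iff_ne, beq_iff_eq] at h
  obtain ⟨⟨⟨⟨⟨⟨⟨⟨⟨⟨⟨ha, hr⟩, h1⟩, h2⟩, hk⟩, h3⟩, h4⟩, h5⟩, h6⟩, h7⟩, h8⟩, h9⟩ := h
  have ha' : 71 - a < 72 := by omega
  have hne : kN (71 - a) (kN a r) ≠ 127 := by rw [h5]; omega
  have hcc : ((cN (71 - a) (kN a r) : ℤ) : K) * ((cN a r : ℤ) : K) = 1 := by
    rw [← Int.cast_mul, h6, Int.cast_one]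
  have e1 := zM_Nm_some (K := K) ha hr h1 h2 1
  have e2 := zM_Nm_none (K := K) ha' hr h4 h3 (-1)
  have e3 := zM_Nm_some (K := K) ha' hk h9 hne (-1)
  have e4 := zM_Nm_none (K := K) ha hk h8 h7 1
  rw [h5] at e3
  rw [mul_one] at e1
  have e5 : zM (71 - a) (-1) * (Nm K r + ((cN a r : ℤ) : K) • Nm K (kN a r)) =
      ((cN a r : ℤ) : K) • Nm K (kN a r) * zM (71 - a) (-1) := by
    rw [mul_add, mul_smul_comm, e2, e3, smul_mul_assoc, add_mul, smul_add, smul_mul_assoc, smul_smul,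
      show ((cN a r : ℤ) : K) * (((cN (71 - a) (kN a r) : ℤ) : K) * -1) = -1 by
        rw [← mul_assoc, mul_comm ((cN a r : ℤ) : K), hcc]; ring, neg_smul, one_smul]
    abel
  have e6 : zM a 1 * zM (71 - a) (-1) * zM a 1 * Nm K r =
      ((cN a r : ℤ) : K) • Nm K (kN a r) * (zM a 1 * zM (71 - a) (-1) * zM a 1) := by
    rw [mul_assoc (zM a 1 * zM (71 - a) (-1)), e1, ← mul_assoc, mul_assoc (zM a 1), e5, ← mul_assoc (zM a 1),
      mul_smul_comm, e4, ← smul_mul_assoc]
    simp only [mul_assoc]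
  apply Units.ext
  unfold nU
  simp only [Units.val_mul]
  rw [coe_zU ha, coe_zU ha', coe_zU hr, coe_zU hk,
    zM_def r, zM_def (kN a r), mul_add, mul_one, mul_smul_comm, e6, add_mul, one_mul, smul_mul_assoc, smul_mul_assoc,
    smul_smul, mul_comm t]

theorem cN_cases (a r : ℕ) : cN a r = 1 ∨ cN a r = -1 := by
  unfold cN
  split_ifs
  · exact Or.inl rfl
  · exact Or.inr rfl

/-! ### generators of `Z2` -/

theorem single_mem {q : ℕ} {t : K} (ht : t ^ q = t) {r : ℕ} (hr : r ∈ [46, 25, 39, 32]) : zU r t ∈ Z2 K q :=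
  subset_closure (Or.inl ⟨t, ht, r, hr, rfl⟩)

theorem pair_mem {q : ℕ} (t : K) {rs : ℕ × ℕ} (hr : rs ∈ [(56, 36), (15, 35), (42, 37), (29, 34)]) :
    zU rs.1 t * zU rs.2 (t ^ q) ∈ Z2 K q :=
  subset_closure (Or.inr ⟨t, rs, hr, rfl⟩)

/-- the roots of a pair are orthogonal -/
theorem pair_check : ∀ rs ∈ [((56 : ℕ), (36 : ℕ)), (15, 35), (42, 37), (29, 34)],
    rs.1 < 72 ∧ rs.2 < 72 ∧ kN rs.1 rs.2 = 127 ∧ rs.2 + rs.1 ≠ 71 ∧ kN rs.1 (71 - rs.2) = 127 ∧
      71 - rs.2 + rs.1 ≠ 71 ∧ kN (71 - rs.1) rs.2 = 127 ∧ rs.2 + (71 - rs.1) ≠ 71 ∧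
      kN (71 - rs.1) (71 - rs.2) = 127 ∧ (71 - rs.2) + (71 - rs.1) ≠ 71 ∧
      (71 - rs.1, 71 - rs.2) ∈ [((56 : ℕ), (36 : ℕ)), (15, 35), (42, 37), (29, 34)] := by
  decide +kernel

theorem pair_mul {rs : ℕ × ℕ} (hr : rs ∈ [((56 : ℕ), (36 : ℕ)), (15, 35), (42, 37), (29, 34)]) (a b c d e f : K) :
    (zU rs.1 a * zU (71 - rs.1) b * zU rs.1 c) * (zU rs.2 d * zU (71 - rs.2) e * zU rs.2 f) =
      (zU rs.1 a * zU rs.2 d) * (zU (71 - rs.1) b * zU (71 - rs.2) e) * (zU rs.1 c * zU rs.2 f) := by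
  obtain ⟨h1, h2, h3, h4, h5, h6, h7, h8, -, -, -⟩ := pair_check rs hr
  have c1 := zU_comm (K := K) h1 h2 h4 h3 c d
  have c2 := zU_comm (K := K) h1 (show 71 - rs.2 < 72 by omega) h6 h5 c e
  have c4 := zU_comm (K := K) (show 71 - rs.1 < 72 by omega) h2 h8 h7 b d
  calc (zU rs.1 a * zU (71 - rs.1) b * zU rs.1 c) * (zU rs.2 d * zU (71 - rs.2) e * zU rs.2 f)
      = zU rs.1 a * zU (71 - rs.1) b * (zU rs.1 c * zU rs.2 d) * zU (71 - rs.2) e * zU rs.2 f := by
        simp only [mul_assoc]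
    _ = zU rs.1 a * (zU (71 - rs.1) b * zU rs.2 d) * (zU rs.1 c * zU (71 - rs.2) e) * zU rs.2 f := by
        rw [c1]; simp only [mul_assoc]
    _ = (zU rs.1 a * zU rs.2 d) * (zU (71 - rs.1) b * zU (71 - rs.2) e) * (zU rs.1 c * zU rs.2 f) := by
        rw [c2, c4]; simp only [mul_assoc]

theorem nU_mem {q : ℕ} (hq : (-1 : K) ^ q = -1) {a : ℕ} (ha : a ∈ [46, 25, 39, 32]) : nU a ∈ Z2 K q := by
  unfold nU
  have h1 : 71 - a ∈ [46, 25, 39, 32] := by
    revert a; decide
  exact mul_mem (mul_mem (single_mem (one_pow q) ha) (single_mem hq h1)) (single_mem (one_pow q) ha)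

theorem nUU_mem {q : ℕ} (hq : (-1 : K) ^ q = -1) {rs : ℕ × ℕ}
    (hr : rs ∈ [((56 : ℕ), (36 : ℕ)), (15, 35), (42, 37), (29, 34)]) : nU rs.1 * nU rs.2 ∈ Z2 K q := by
  have hr' := (pair_check rs hr).2.2.2.2.2.2.2.2.2.2
  have h1 := pair_mem (q := q) (1 : K) hr
  have h2 := pair_mem (q := q) (-1 : K) hr'
  rw [one_pow] at h1
  rw [hq] at h2
  unfold nU
  rw [pair_mul hr]
  exact mul_mem (mul_mem h1 h2) h1

/-! ### the root elements -/

/-- the root elements of `r` over the fixed field lie in `Z2` -/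
def SM (K : Type*) [Field K] (q r : ℕ) : Prop := ∀ t : K, t ^ q = t → zU r t ∈ Z2 K q

theorem pow_sign {q : ℕ} (hq : (-1 : K) ^ q = -1) {c : ℤ} (hc : c = 1 ∨ c = -1) {t : K} (ht : t ^ q = t) :
    ((c : K) * t) ^ q = (c : K) * t := by
  rw [mul_pow, ht]
  rcases hc with rfl | rfl
  · simp
  · rw [Int.cast_neg, Int.cast_one, hq]

theorem SM_conj {q : ℕ} {g : GL I27 K} (hg : g ∈ Z2 K q) (hq : (-1 : K) ^ q = -1) {r k : ℕ} {c : ℤ}
    (hc : c = 1 ∨ c = -1) (h : ∀ t : K, g * zU r t = zU k ((c : K) * t) * g) (hS : SM K q r) : SM K q k := by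
  intro t ht
  have h1 := h ((c : K) * t)
  have h2 : (c : K) * ((c : K) * t) = t := by
    rcases hc with rfl | rfl
    · simp
    · simp
  rw [h2] at h1
  have h3 : zU k t = g * zU r ((c : K) * t) * g⁻¹ := by rw [h1, mul_inv_cancel_right]
  rw [h3]
  exact mul_mem (mul_mem hg (hS _ (pow_sign hq hc ht))) (inv_mem hg)

theorem SM_single {q : ℕ} (hq : (-1 : K) ^ q = -1) {a r k : ℕ} (ha : a ∈ [46, 25, 39, 32]) (h : good a r = true)
    (hk : kN a r = k) (hS : SM K q r) : SM K q k := by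
  subst hk
  exact SM_conj (nU_mem hq ha) hq (cN_cases a r) (nU_mul h) hS

theorem SM_pair {q : ℕ} (hq : (-1 : K) ^ q = -1) {a b r k : ℕ}
    (ha : (a, b) ∈ [((56 : ℕ), (36 : ℕ)), (15, 35), (42, 37), (29, 34)]) (h : good b r = true)
    (h2 : good a (kN b r) = true) (hk : kN a (kN b r) = k) (hS : SM K q r) : SM K q k := by
  subst hk
  refine SM_conj (nUU_mem hq ha) hq (c := cN a (kN b r) * cN b r) ?_ ?_ hS
  · rcases cN_cases a (kN b r) with h3 | h3 <;> rcases cN_cases b r with h4 | h4 <;> rw [h3, h4] <;> simp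
  · intro t
    change nU a * nU b * zU r t = _ * (nU a * nU b)
    rw [mul_assoc, nU_mul h, ← mul_assoc, nU_mul h2, mul_assoc, Int.cast_mul, mul_assoc]

theorem neg_one_pow [Finite K] {q : ℕ} (hq : Nat.card K = q ^ 2) : (-1 : K) ^ q = -1 := by
  have := Fintype.ofFinite K
  rcases Nat.even_or_odd q with he | ho
  · have h1 : (-1 : K) ^ (q ^ 2) = -1 := by
      rw [← hq, Nat.card_eq_fintype_card, FiniteField.pow_card]
    have h2 : Even (q ^ 2) := by
      rw [pow_two]; exact he.mul_left q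
    rw [h2.neg_one_pow] at h1
    rw [he.neg_one_pow]; exact h1
  · exact ho.neg_one_pow

/-- **EJ, first half.** -/
theorem frame_mem_Z2 {q : ℕ} [Finite K] (hq : Nat.card K = q ^ 2) {t : K} (ht : t ^ q = t) {r : ℕ}
    (hr : r ∈ [39, 44, 60, 71, 46, 53, 65, 69, 32, 27, 11, 0, 25, 18, 6, 2]) : zU r t ∈ Z2 K q := by
  have h1 := neg_one_pow hq
  have s39 : SM K q 39 := fun t ht => single_mem ht (by decide)
  have s46 : SM K q 46 := fun t ht => single_mem ht (by decide)
  have s32 : SM K q 32 := fun t ht => single_mem ht (by decide)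
  have s25 : SM K q 25 := fun t ht => single_mem ht (by decide)
  have s47 : SM K q 47 := SM_single h1 (a := 46) (by decide) (by decide +kernel) (by decide +kernel) s39
  have s44 : SM K q 44 := SM_pair h1 (a := 42) (b := 37) (by decide) (by decide +kernel) (by decide +kernel)
    (by decide +kernel) s39
  have s60 : SM K q 60 := SM_pair h1 (a := 56) (b := 36) (by decide) (by decide +kernel) (by decide +kernel)
    (by decide +kernel) s44
  have s51 : SM K q 51 := SM_pair h1 (a := 42) (b := 37) (by decide) (by decide +kernel) (by decide +kernel)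
    (by decide +kernel) s47
  have s53 : SM K q 53 := SM_single h1 (a := 39) (by decide) (by decide +kernel) (by decide +kernel) s51
  have s65 : SM K q 65 := SM_pair h1 (a := 56) (b := 36) (by decide) (by decide +kernel) (by decide +kernel)
    (by decide +kernel) s53
  have s69 : SM K q 69 := SM_pair h1 (a := 42) (b := 37) (by decide) (by decide +kernel) (by decide +kernel)
    (by decide +kernel) s65
  have s70 : SM K q 70 := SM_single h1 (a := 39) (by decide) (by decide +kernel) (by decide +kernel) s69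
  have s71 : SM K q 71 := SM_single h1 (a := 46) (by decide) (by decide +kernel) (by decide +kernel) s70
  have s24 : SM K q 24 := SM_single h1 (a := 25) (by decide) (by decide +kernel) (by decide +kernel) s32
  have s27 : SM K q 27 := SM_pair h1 (a := 29) (b := 34) (by decide) (by decide +kernel) (by decide +kernel)
    (by decide +kernel) s32
  have s11 : SM K q 11 := SM_pair h1 (a := 15) (b := 35) (by decide) (by decide +kernel) (by decide +kernel)
    (by decide +kernel) s27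
  have s20 : SM K q 20 := SM_pair h1 (a := 29) (b := 34) (by decide) (by decide +kernel) (by decide +kernel)
    (by decide +kernel) s24
  have s18 : SM K q 18 := SM_single h1 (a := 32) (by decide) (by decide +kernel) (by decide +kernel) s20
  have s6 : SM K q 6 := SM_pair h1 (a := 15) (b := 35) (by decide) (by decide +kernel) (by decide +kernel)
    (by decide +kernel) s18
  have s2 : SM K q 2 := SM_pair h1 (a := 29) (b := 34) (by decide) (by decide +kernel) (by decide +kernel)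
    (by decide +kernel) s6
  have s1 : SM K q 1 := SM_single h1 (a := 32) (by decide) (by decide +kernel) (by decide +kernel) s2
  have s0 : SM K q 0 := SM_single h1 (a := 25) (by decide) (by decide +kernel) (by decide +kernel) s1
  simp only [List.mem_cons, List.not_mem_nil, or_false] at hr
  rcases hr with rfl | rfl | rfl | rfl | rfl | rfl | rfl | rfl | rfl | rfl | rfl | rfl | rfl | rfl | rfl | rfl
  exacts [s39 t ht, s44 t ht, s60 t ht, s71 t ht, s46 t ht, s53 t ht, s65 t ht, s69 t ht, s32 t ht, s27 t ht,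
    s11 t ht, s0 t ht, s25 t ht, s18 t ht, s6 t ht, s2 t ht]

/-! ### the torus -/

theorem hUU_mem {q : ℕ} {a b : ℕ} (ha : (a, b) ∈ [((56 : ℕ), (36 : ℕ)), (15, 35), (42, 37), (29, 34)]) {c : K}
    (hc : c ≠ 0) :
    zU a c * zU (71 - a) (-c⁻¹) * zU a c * (zU a (-1) * zU (71 - a) 1 * zU a (-1)) *
      (zU b (c ^ q) * zU (71 - b) (-(c ^ q)⁻¹) * zU b (c ^ q) * (zU b (-1) * zU (71 - b) 1 * zU b (-1))) ∈ Z2 K q := by
  obtain ⟨h1, h2, h3, h4, h5, h6, h7, h8, h9, h10, hm⟩ := pair_check _ ha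
  dsimp only at h1 h2 h3 h4 h5 h6 h7 h8 h9 h10 hm
  have h1' : 71 - a < 72 := by omega
  have h2' : 71 - b < 72 := by omega
  have hA : ∀ t : K, zU a t * zU b (t ^ q) ∈ Z2 K q := fun t => pair_mem t ha
  have hB : ∀ t : K, zU (71 - a) t * zU (71 - b) (t ^ q) ∈ Z2 K q := fun t => pair_mem t hm
  by_cases hq : (-1 : K) ^ q = -1
  · -- reorder
    have hcomm : (zU a (-1) * zU (71 - a) 1 * zU a (-1) : GL I27 K) *
        (zU b (c ^ q) * zU (71 - b) (-(c ^ q)⁻¹) * zU b (c ^ q)) =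
        (zU b (c ^ q) * zU (71 - b) (-(c ^ q)⁻¹) * zU b (c ^ q)) * (zU a (-1) * zU (71 - a) 1 * zU a (-1)) := by
      have c1 : ∀ x y : K, Commute (zU a x) (zU b y) := fun x y => zU_comm h1 h2 h4 h3 x y
      have c2 : ∀ x y : K, Commute (zU a x) (zU (71 - b) y) := fun x y => zU_comm h1 h2' h6 h5 x y
      have c3 : ∀ x y : K, Commute (zU (71 - a) x) (zU b y) := fun x y => zU_comm h1' h2 h8 h7 x y
      have c4 : ∀ x y : K, Commute (zU (71 - a) x) (zU (71 - b) y) := fun x y => zU_comm h1' h2' h10 h9 x y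
      have d1 : ∀ x : K, Commute (zU a x) (zU b (c ^ q) * zU (71 - b) (-(c ^ q)⁻¹) * zU b (c ^ q)) := fun x =>
        ((c1 x _).mul_right (c2 x _)).mul_right (c1 x _)
      have d2 : ∀ x : K, Commute (zU (71 - a) x) (zU b (c ^ q) * zU (71 - b) (-(c ^ q)⁻¹) * zU b (c ^ q)) := fun x =>
        ((c3 x _).mul_right (c4 x _)).mul_right (c3 x _)
      exact ((d1 _).mul_left (d2 _)).mul_left (d1 _)
    have e1 : zU a c * zU (71 - a) (-c⁻¹) * zU a c * (zU a (-1) * zU (71 - a) 1 * zU a (-1)) *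
        (zU b (c ^ q) * zU (71 - b) (-(c ^ q)⁻¹) * zU b (c ^ q) * (zU b (-1) * zU (71 - b) 1 * zU b (-1))) =
        (zU a c * zU (71 - a) (-c⁻¹) * zU a c * (zU b (c ^ q) * zU (71 - b) (-(c ^ q)⁻¹) * zU b (c ^ q))) *
        ((zU a (-1) * zU (71 - a) 1 * zU a (-1)) * (zU b (-1) * zU (71 - b) 1 * zU b (-1))) := by
      calc zU a c * zU (71 - a) (-c⁻¹) * zU a c * (zU a (-1) * zU (71 - a) 1 * zU a (-1)) *
          (zU b (c ^ q) * zU (71 - b) (-(c ^ q)⁻¹) * zU b (c ^ q) * (zU b (-1) * zU (71 - b) 1 * zU b (-1)))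
          = zU a c * zU (71 - a) (-c⁻¹) * zU a c * ((zU a (-1) * zU (71 - a) 1 * zU a (-1)) *
          (zU b (c ^ q) * zU (71 - b) (-(c ^ q)⁻¹) * zU b (c ^ q))) * (zU b (-1) * zU (71 - b) 1 * zU b (-1)) := by
            simp only [mul_assoc]
        _ = _ := by rw [hcomm]; simp only [mul_assoc]
    rw [e1]
    have e2 := pair_mul (K := K) ha c (-c⁻¹) c (c ^ q) (-(c ^ q)⁻¹) (c ^ q)
    have e3 := pair_mul (K := K) ha (-1) 1 (-1) (-1) 1 (-1)
    dsimp only at e2 e3
    rw [e2, e3]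
    have hq2 : (-c⁻¹) ^ q = -(c ^ q)⁻¹ := by
      rw [neg_pow, hq, inv_pow]; ring
    have m1 := hA c
    have m2 := hB (-c⁻¹)
    have m3 := hA (-1)
    have m4 := hB 1
    rw [hq2] at m2
    rw [hq] at m3
    rw [one_pow] at m4
    exact mul_mem (mul_mem (mul_mem m1 m2) m1) (mul_mem (mul_mem m3 m4) m3)
  · -- the `q`-th power map is even
    have hev : Even q := by
      by_contra h
      rw [Nat.not_even_iff_odd] at h
      exact hq h.neg_one_pow
    have hq1 : (-1 : K) ^ q = 1 := hev.neg_one_pow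
    have h2ne : (2 : K) ≠ 0 := by
      intro h
      apply hq
      rw [hq1, eq_neg_iff_add_eq_zero, one_add_one_eq_two, h]
    have gen : ∀ {a b : ℕ}, a < 72 → b < 72 → (∀ t u : K, zU a t * zU b u = zU b u * zU a t) →
        (∀ t : K, zU a t * zU b (t ^ q) ∈ Z2 K q) → ∀ t : K, zU b (t ^ q) ∈ Z2 K q := by
      intro a b h1 h2 hc hA t
      rcases Nat.eq_zero_or_pos q with h0 | hpos
      · have h5 := hA 0
        rw [zU_zero h1, one_mul, h0, pow_zero] at h5
        rw [h0, pow_zero]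
        exact h5
      · have h5 : ∀ s : K, zU b (2 * s ^ q) ∈ Z2 K q := by
          intro s
          have h6 := mul_mem (hA s) (hA (-s))
          have h7 : (-s) ^ q = s ^ q := hev.neg_pow s
          rw [h7] at h6
          have h8 : zU a s * zU b (s ^ q) * (zU a (-s) * zU b (s ^ q)) = zU b (2 * s ^ q) := by
            calc zU a s * zU b (s ^ q) * (zU a (-s) * zU b (s ^ q))
                = zU a s * (zU b (s ^ q) * zU a (-s)) * zU b (s ^ q) := by simp only [mul_assoc]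
              _ = zU a s * (zU a (-s) * zU b (s ^ q)) * zU b (s ^ q) := by rw [hc]
              _ = (zU a s * zU a (-s)) * (zU b (s ^ q) * zU b (s ^ q)) := by simp only [mul_assoc]
              _ = zU b (2 * s ^ q) := by
                rw [zU_add h1, add_neg_cancel, zU_zero h1, one_mul, zU_add h2]
                congr 1; ring
          rwa [h8] at h6
        have h6 := pow_mem (h5 (t / 2)) (2 ^ (q - 1))
        rw [zU_pow h2] at h6
        have h7 : ((2 ^ (q - 1) : ℕ) : K) * (2 * (t / 2) ^ q) = t ^ q := by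
          rw [Nat.cast_pow, Nat.cast_ofNat, ← mul_assoc, ← pow_succ, Nat.sub_add_cancel hpos, div_pow,
            mul_div_cancel₀ _ (pow_ne_zero _ h2ne)]
        rwa [h7] at h6
    have hb : ∀ t : K, zU b (t ^ q) ∈ Z2 K q := gen h1 h2 (fun t u => zU_comm h1 h2 h4 h3 t u) hA
    have hb' : ∀ t : K, zU (71 - b) (t ^ q) ∈ Z2 K q := gen h1' h2' (fun t u => zU_comm h1' h2' h10 h9 t u) hB
    have haa : ∀ t : K, zU a t ∈ Z2 K q := fun t => by
      have := mul_mem (hA t) (inv_mem (hb t))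
      rwa [mul_inv_cancel_right] at this
    have haa' : ∀ t : K, zU (71 - a) t ∈ Z2 K q := fun t => by
      have := mul_mem (hB t) (inv_mem (hb' t))
      rwa [mul_inv_cancel_right] at this
    have k1 : zU b (-1 : K) ∈ Z2 K q := by
      have := inv_mem (hb 1)
      rwa [zU_inv h2, one_pow] at this
    have k2 : zU (71 - b) (1 : K) ∈ Z2 K q := by
      have := hb' 1
      rwa [one_pow] at this
    have k3 : zU (71 - b) (-(c ^ q)⁻¹) ∈ Z2 K q := by
      have := inv_mem (hb' c⁻¹)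
      rwa [zU_inv h2', inv_pow] at this
    exact mul_mem (mul_mem (mul_mem (mul_mem (haa _) (haa' _)) (haa _)) (mul_mem (mul_mem (haa _) (haa' _)) (haa _)))
      (mul_mem (mul_mem (mul_mem (hb _) k3) (hb _)) (mul_mem (mul_mem k1 k2) k1))

/-- **EJ, second half.** -/
theorem torus_mem_Z2 {q : ℕ} {c : K} (hc : c ≠ 0) :
    hU 0 c * hU 5 (c ^ q) ∈ Z2 K q ∧ hU 2 c * hU 4 (c ^ q) ∈ Z2 K q :=
  ⟨hUU_mem (a := 56) (b := 36) (by decide) hc, hUU_mem (a := 42) (b := 37) (by decide) hc⟩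

end

end Cfsg.Agent.H442.Hall.E6Z2
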