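import Mathlib

/-!
# S2223, N3: block matrices on planes, definitions (helper442)
-/

set_option autoImplicit false

namespace Cfsg.Agent.H442.Hall.Plane

/-- `w = (s/2) [[1, 1], [-1, 1]]` -/
def wM {F : Type*} [Field F] (s : F) : Matrix (Fin 2) (Fin 2) F := !![s / 2, s / 2; -(s / 2), s / 2]

/-- `r = diag(1, -1)` -/
def rM {F : Type*} [Field F] : Matrix (Fin 2) (Fin 2) F := !![1, 0; 0, -1]

/-- block diagonal matrices: blocks `A j` on the planes, `ε` on the remaining coordinates -/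
def bd {F : Type*} [Field F] {m k : ℕ} (A : Fin m → Matrix (Fin 2) (Fin 2) F) (ε : F) :
    Matrix ((Fin 2 × Fin m) ⊕ Fin k) ((Fin 2 × Fin m) ⊕ Fin k) F :=
  Matrix.fromBlocks (Matrix.blockDiagonal A) 0 0 (Matrix.diagonal fun _ => ε)

end Cfsg.Agent.H442.Hall.Plane
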