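import Cfsg.Agent.H125.Hall.CoreRow
import Cfsg.Agent.H408.Hall.MTwo
import Cfsg.Agent.H442.Hall.PlaneDefs

/-!
# S2223, N3: `CoreRow` from block matrices on planes (helper442)

`T` is the group of the block matrices with blocks in `⟨w, r⟩` (of order 16) on the planes and `±1` on the remaining
coordinate.
-/

set_option autoImplicit false
set_option linter.unusedSectionVars false

namespace Cfsg.Agent.H442.Hall.Plane

open Subgroup Cfsg.Agent.H125.Hall Polynomial

section Two

variable {F : Type*} [Field F] {s d : F}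

theorem wM_sq (h2 : (2 : F) ≠ 0) (hs : s ^ 2 = 2 * d) : (wM s : Matrix (Fin 2) (Fin 2) F) ^ 2 = !![0, d; -d, 0] := by
  have h4 : (s / 2) * (s / 2) + (s / 2) * (s / 2) = d := by
    field_simp
    linear_combination 2 * hs
  rw [pow_two]
  unfold wM
  rw [Matrix.mul_fin_two]
  ext i j
  fin_cases i <;> fin_cases j
  · show s / 2 * (s / 2) + s / 2 * -(s / 2) = 0
    ring
  · show s / 2 * (s / 2) + s / 2 * (s / 2) = d
    exact h4
  · show -(s / 2) * (s / 2) + s / 2 * -(s / 2) = -d
    linear_combination -h4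
  · show -(s / 2) * (s / 2) + s / 2 * (s / 2) = 0
    ring

theorem wM_four (h2 : (2 : F) ≠ 0) (hs : s ^ 2 = 2 * d) (hd : d ^ 2 = 1) :
    (wM s : Matrix (Fin 2) (Fin 2) F) ^ 4 = -1 := by
  rw [show (4 : ℕ) = 2 * 2 from rfl, pow_mul, wM_sq h2 hs, pow_two, Matrix.mul_fin_two]
  ext i j
  fin_cases i <;> fin_cases j
  · show 0 * 0 + d * -d = -1
    linear_combination -hd
  · show 0 * d + d * 0 = -0
    ring
  · show -d * 0 + 0 * -d = -0
    ring
  · show -d * d + 0 * 0 = -1
    linear_combination -hd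

theorem wM_eight (h2 : (2 : F) ≠ 0) (hs : s ^ 2 = 2 * d) (hd : d ^ 2 = 1) :
    (wM s : Matrix (Fin 2) (Fin 2) F) ^ 8 = 1 := by
  rw [show (8 : ℕ) = 4 * 2 from rfl, pow_mul, wM_four h2 hs hd, neg_one_sq]

theorem rM_sq : (rM : Matrix (Fin 2) (Fin 2) F) ^ 2 = 1 := by
  rw [pow_two]
  unfold rM
  rw [Matrix.mul_fin_two]
  ext i j
  fin_cases i <;> fin_cases j
  · show (1 : F) * 1 + 0 * 0 = 1
    ring
  · show (1 : F) * 0 + 0 * -1 = 0
    ring
  · show (0 : F) * 1 + -1 * 0 = 0
    ring
  · show (0 : F) * 0 + -1 * -1 = 1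
    ring

theorem det_wM (h2 : (2 : F) ≠ 0) (hs : s ^ 2 = 2 * d) : (wM s : Matrix (Fin 2) (Fin 2) F).det = d := by
  unfold wM
  rw [Matrix.det_fin_two_of]
  field_simp
  linear_combination 2 * hs

theorem det_rM : (rM : Matrix (Fin 2) (Fin 2) F).det = -1 := by
  unfold rM
  rw [Matrix.det_fin_two_of]
  ring

/-- the minimal polynomial of `w` -/
theorem wM_min (h2 : (2 : F) ≠ 0) (hs : s ^ 2 = 2 * d) :
    (wM s : Matrix (Fin 2) (Fin 2) F) ^ 2 - s • wM s + d • 1 = 0 := by
  rw [wM_sq h2 hs]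
  have h4 : s * (s / 2) = d := by
    field_simp
    linear_combination hs
  ext i j
  fin_cases i <;> fin_cases j
  · show 0 - s * (s / 2) + d * 1 = 0
    linear_combination -h4
  · show d - s * (s / 2) + d * 0 = 0
    linear_combination -h4
  · show -d - s * -(s / 2) + d * 0 = 0
    linear_combination h4
  · show 0 - s * (s / 2) + d * 1 = 0
    linear_combination -h4

/-- `r w = d w⁻¹ r` -/
theorem rM_wM (h2 : (2 : F) ≠ 0) (hs : s ^ 2 = 2 * d) :
    wM s * ((rM : Matrix (Fin 2) (Fin 2) F) * wM s) = d • rM := by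
  have h4 : (s / 2) * (s / 2) + (s / 2) * (s / 2) = d := by
    field_simp
    linear_combination 2 * hs
  unfold rM wM
  rw [Matrix.mul_fin_two, Matrix.mul_fin_two]
  ext i j
  fin_cases i <;> fin_cases j
  · show s / 2 * (1 * (s / 2) + 0 * -(s / 2)) + s / 2 * (0 * (s / 2) + -1 * -(s / 2)) = d * 1
    linear_combination h4
  · show s / 2 * (1 * (s / 2) + 0 * (s / 2)) + s / 2 * (0 * (s / 2) + -1 * (s / 2)) = d * 0
    ring
  · show -(s / 2) * (1 * (s / 2) + 0 * -(s / 2)) + s / 2 * (0 * (s / 2) + -1 * -(s / 2)) = d * 0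
    ring
  · show -(s / 2) * (1 * (s / 2) + 0 * (s / 2)) + s / 2 * (0 * (s / 2) + -1 * (s / 2)) = d * -1
    linear_combination -h4

theorem d_cases (hd : d ^ 2 = 1) : d = 1 ∨ d = -1 := by
  rw [pow_two] at hd
  exact mul_self_eq_one_iff.1 hd

/-- `r w = w ^ e r` -/
theorem exists_e (h2 : (2 : F) ≠ 0) (hs : s ^ 2 = 2 * d) (hd : d ^ 2 = 1) :
    ∃ e : ℕ, (rM : Matrix (Fin 2) (Fin 2) F) * wM s = wM s ^ e * rM := by
  have h8 := wM_eight h2 hs hd
  have h4 := wM_four h2 hs hd
  have h1 := rM_wM h2 hs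
  have h7 : (wM s : Matrix (Fin 2) (Fin 2) F) ^ 7 * (wM s * (rM * wM s)) = rM * wM s := by
    rw [← mul_assoc, ← pow_succ, h8, one_mul]
  rw [h1] at h7
  rcases d_cases hd with h | h
  · refine ⟨7, ?_⟩
    rw [← h7, h, one_smul]
  · refine ⟨3, ?_⟩
    rw [← h7, h, neg_smul, one_smul, show (7 : ℕ) = 3 + 4 from rfl, pow_add, h4]
    simp

/-- the elements of `⟨w, r⟩` -/
def InD (s : F) (A : Matrix (Fin 2) (Fin 2) F) : Prop := ∃ i l : ℕ, A = wM s ^ i * rM ^ l

theorem InD.one : InD s (1 : Matrix (Fin 2) (Fin 2) F) := ⟨0, 0, by rw [pow_zero, pow_zero, mul_one]⟩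

theorem InD.w : InD s (wM s : Matrix (Fin 2) (Fin 2) F) := ⟨1, 0, by rw [pow_zero, pow_one, mul_one]⟩

theorem InD.r : InD s (rM : Matrix (Fin 2) (Fin 2) F) := ⟨0, 1, by rw [pow_zero, pow_one, one_mul]⟩

theorem pow_comm {e : ℕ} (he : (rM : Matrix (Fin 2) (Fin 2) F) * wM s = wM s ^ e * rM) (j : ℕ) :
    (rM : Matrix (Fin 2) (Fin 2) F) * wM s ^ j = wM s ^ (e * j) * rM := by
  induction j with
  | zero => rw [pow_zero, mul_zero, pow_zero, one_mul, mul_one]
  | succ j ih => rw [pow_succ, ← mul_assoc, ih, mul_assoc, he, ← mul_assoc, ← pow_add, mul_add, mul_one]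

theorem pow_comm' {e : ℕ} (he : (rM : Matrix (Fin 2) (Fin 2) F) * wM s = wM s ^ e * rM) (l : ℕ) :
    ∀ j : ℕ, ∃ f : ℕ, (rM : Matrix (Fin 2) (Fin 2) F) ^ l * wM s ^ j = wM s ^ f * rM ^ l := by
  induction l with
  | zero => exact fun j => ⟨j, by rw [pow_zero, one_mul, mul_one]⟩
  | succ l ih =>
    intro j
    obtain ⟨f, hf⟩ := ih (e * j)
    exact ⟨f, by rw [pow_succ, mul_assoc, pow_comm he, ← mul_assoc, hf, mul_assoc]⟩

theorem InD.mul {e : ℕ} (he : (rM : Matrix (Fin 2) (Fin 2) F) * wM s = wM s ^ e * rM)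
    {A B : Matrix (Fin 2) (Fin 2) F} (hA : InD s A) (hB : InD s B) : InD s (A * B) := by
  obtain ⟨i, l, rfl⟩ := hA
  obtain ⟨j, m, rfl⟩ := hB
  obtain ⟨f, hf⟩ := pow_comm' he l j
  exact ⟨i + f, l + m, by
    rw [pow_add, pow_add, mul_assoc, ← mul_assoc (rM ^ l), hf]
    simp only [mul_assoc]⟩

theorem InD.pow_eq {e : ℕ} (he : (rM : Matrix (Fin 2) (Fin 2) F) * wM s = wM s ^ e * rM)
    (h8 : (wM s : Matrix (Fin 2) (Fin 2) F) ^ 8 = 1) {A : Matrix (Fin 2) (Fin 2) F} (hA : InD s A) : A ^ 16 = 1 := by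
  obtain ⟨i, l, rfl⟩ := hA
  have h1 : ∃ f : ℕ, (wM s ^ i * rM ^ l : Matrix (Fin 2) (Fin 2) F) ^ 2 = wM s ^ f := by
    obtain ⟨f, hf⟩ := pow_comm' he l i
    refine ⟨i + f, ?_⟩
    rw [pow_two, mul_assoc, ← mul_assoc (rM ^ l), hf, mul_assoc, ← pow_add, ← two_mul, pow_mul, rM_sq, one_pow,
      mul_one, pow_add]
  obtain ⟨f, hf⟩ := h1
  rw [show (16 : ℕ) = 2 * 8 from rfl, pow_mul, hf, ← pow_mul, mul_comm f 8, pow_mul, h8, one_pow]

/-- matrices commuting with `w²` and `r` are scalar -/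
theorem scalar_of_comm (h2 : (2 : F) ≠ 0) (hs : s ^ 2 = 2 * d) (hd : d ^ 2 = 1) {M : Matrix (Fin 2) (Fin 2) F}
    (hw : M * wM s ^ 2 = wM s ^ 2 * M) (hr : M * rM = rM * M) : M 0 1 = 0 ∧ M 1 0 = 0 ∧ M 1 1 = M 0 0 := by
  have hd0 : d ≠ 0 := by
    rintro rfl
    rw [zero_pow two_ne_zero] at hd
    exact zero_ne_one hd
  rw [wM_sq h2 hs] at hw
  have e1 := congrFun (congrFun hr 0) 1
  have e2 := congrFun (congrFun hr 1) 0
  have e3 := congrFun (congrFun hw 0) 1
  rw [Matrix.mul_apply, Matrix.mul_apply, Fin.sum_univ_two, Fin.sum_univ_two] at e1 e2 e3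
  change M 0 0 * 0 + M 0 1 * -1 = 1 * M 0 1 + 0 * M 1 1 at e1
  change M 1 0 * 1 + M 1 1 * 0 = 0 * M 0 0 + -1 * M 1 0 at e2
  change M 0 0 * d + M 0 1 * 0 = 0 * M 0 1 + d * M 1 1 at e3
  refine ⟨?_, ?_, ?_⟩
  · have : (2 : F) * M 0 1 = 0 := by linear_combination -e1
    exact (mul_eq_zero.1 this).resolve_left h2
  · have : (2 : F) * M 1 0 = 0 := by linear_combination e2
    exact (mul_eq_zero.1 this).resolve_left h2
  · have : d * M 1 1 = d * M 0 0 := by linear_combination -e3
    exact mul_left_cancel₀ hd0 this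

end Two

section Bd

variable {F : Type*} [Field F] {m k : ℕ}

theorem bd_inl (A : Fin m → Matrix (Fin 2) (Fin 2) F) (ε : F) (x y : Fin 2 × Fin m) :
    (bd A ε : Matrix ((Fin 2 × Fin m) ⊕ Fin k) _ F) (Sum.inl x) (Sum.inl y) = if x.2 = y.2 then A x.2 x.1 y.1 else 0 := by
  show Matrix.blockDiagonal A x y = _
  rw [Matrix.blockDiagonal_apply]

theorem bd_inr (A : Fin m → Matrix (Fin 2) (Fin 2) F) (ε : F) (x y : Fin k) :
    (bd A ε : Matrix ((Fin 2 × Fin m) ⊕ Fin k) _ F) (Sum.inr x) (Sum.inr y) = if x = y then ε else 0 := by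
  show Matrix.diagonal (fun _ => ε) x y = _
  rw [Matrix.diagonal_apply]

theorem bd_lr (A : Fin m → Matrix (Fin 2) (Fin 2) F) (ε : F) (x : Fin 2 × Fin m) (y : Fin k) :
    (bd A ε : Matrix ((Fin 2 × Fin m) ⊕ Fin k) _ F) (Sum.inl x) (Sum.inr y) = 0 := rfl

theorem bd_rl (A : Fin m → Matrix (Fin 2) (Fin 2) F) (ε : F) (x : Fin 2 × Fin m) (y : Fin k) :
    (bd A ε : Matrix ((Fin 2 × Fin m) ⊕ Fin k) _ F) (Sum.inr y) (Sum.inl x) = 0 := rfl

theorem bd_mul (A B : Fin m → Matrix (Fin 2) (Fin 2) F) (ε δ : F) :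
    (bd A ε : Matrix ((Fin 2 × Fin m) ⊕ Fin k) _ F) * bd B δ = bd (fun j => A j * B j) (ε * δ) := by
  unfold bd
  rw [Matrix.fromBlocks_multiply, Matrix.blockDiagonal_mul, Matrix.diagonal_mul_diagonal]
  simp

theorem bd_one : (bd (fun _ => 1) 1 : Matrix ((Fin 2 × Fin m) ⊕ Fin k) _ F) = 1 := by
  unfold bd
  have h1 : Matrix.blockDiagonal (fun _ : Fin m => (1 : Matrix (Fin 2) (Fin 2) F)) = 1 :=
    Matrix.blockDiagonal_one
  rw [h1, Matrix.diagonal_one, Matrix.fromBlocks_one]

theorem bd_pow (A : Fin m → Matrix (Fin 2) (Fin 2) F) (ε : F) (n : ℕ) :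
    (bd A ε : Matrix ((Fin 2 × Fin m) ⊕ Fin k) _ F) ^ n = bd (fun j => A j ^ n) (ε ^ n) := by
  induction n with
  | zero => simp only [pow_zero]; rw [bd_one]
  | succ n ih => simp only [pow_succ]; rw [ih, bd_mul]

theorem bd_add (A B : Fin m → Matrix (Fin 2) (Fin 2) F) (ε δ : F) :
    (bd A ε : Matrix ((Fin 2 × Fin m) ⊕ Fin k) _ F) + bd B δ = bd (fun j => A j + B j) (ε + δ) := by
  ext x y
  rcases x with x | x <;> rcases y with y | y
  · rw [Matrix.add_apply, bd_inl, bd_inl, bd_inl]
    split_ifs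
    · rfl
    · rw [add_zero]
  · rw [Matrix.add_apply, bd_lr, bd_lr, bd_lr, add_zero]
  · rw [Matrix.add_apply, bd_rl, bd_rl, bd_rl, add_zero]
  · rw [Matrix.add_apply, bd_inr, bd_inr, bd_inr]
    split_ifs
    · rfl
    · rw [add_zero]

theorem bd_smul (c : F) (A : Fin m → Matrix (Fin 2) (Fin 2) F) (ε : F) :
    c • (bd A ε : Matrix ((Fin 2 × Fin m) ⊕ Fin k) _ F) = bd (fun j => c • A j) (c * ε) := by
  ext x y
  rcases x with x | x <;> rcases y with y | y
  · rw [Matrix.smul_apply, bd_inl, bd_inl]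
    split_ifs
    · rfl
    · rw [smul_zero]
  · rw [Matrix.smul_apply, bd_lr, bd_lr, smul_zero]
  · rw [Matrix.smul_apply, bd_rl, bd_rl, smul_zero]
  · rw [Matrix.smul_apply, bd_inr, bd_inr]
    split_ifs
    · rfl
    · rw [smul_zero]

theorem bd_zero : (bd (fun _ => 0) 0 : Matrix ((Fin 2 × Fin m) ⊕ Fin k) _ F) = 0 := by
  ext x y
  rcases x with x | x <;> rcases y with y | y
  · rw [bd_inl]; split_ifs <;> rfl
  · rfl
  · rfl
  · rw [bd_inr]; split_ifs <;> rfl

/-- scalar blocks -/
theorem bd_diag (b : Fin m → F) (ε : F) : (bd (fun j => b j • (1 : Matrix (Fin 2) (Fin 2) F)) ε :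
    Matrix ((Fin 2 × Fin m) ⊕ Fin k) _ F) = Matrix.diagonal (Sum.elim (fun x => b x.2) fun _ => ε) := by
  ext x y
  rcases x with x | x <;> rcases y with y | y
  · rw [bd_inl, Matrix.diagonal_apply, Matrix.smul_apply, Matrix.one_apply]
    by_cases h1 : x.2 = y.2
    · by_cases h2 : x.1 = y.1
      · rw [if_pos h1, if_pos h2, if_pos (by rw [Prod.ext h2 h1]), smul_eq_mul, mul_one]; rfl
      · rw [if_pos h1, if_neg h2, if_neg (fun h => h2 (by rw [Sum.inl.inj h])), smul_zero]
    · rw [if_neg h1, if_neg (fun h => h1 (by rw [Sum.inl.inj h]))]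
  · rw [bd_lr, Matrix.diagonal_apply_ne _ (by simp)]
  · rw [bd_rl, Matrix.diagonal_apply_ne _ (by simp)]
  · rw [bd_inr, Matrix.diagonal_apply]
    by_cases h1 : x = y
    · rw [if_pos h1, if_pos (by rw [h1])]; rfl
    · rw [if_neg h1, if_neg (fun h => h1 (Sum.inr.inj h))]

/-- the diagonal blocks of matrices which commute with a block matrix -/
theorem block_comm {A : Fin m → Matrix (Fin 2) (Fin 2) F} {ε : F} {N : Matrix ((Fin 2 × Fin m) ⊕ Fin k) _ F}
    (h : N * bd A ε = bd A ε * N) (j : Fin m) :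
    (Matrix.of fun a b => N (Sum.inl (a, j)) (Sum.inl (b, j))) * A j =
      A j * (Matrix.of fun a b => N (Sum.inl (a, j)) (Sum.inl (b, j))) := by
  ext a b
  have h1 := congrFun (congrFun h (Sum.inl (a, j))) (Sum.inl (b, j))
  rw [Matrix.mul_apply, Matrix.mul_apply, Fintype.sum_sum_type, Fintype.sum_sum_type] at h1
  rw [Finset.sum_eq_zero (s := (Finset.univ : Finset (Fin k))) (fun x _ => by rw [bd_rl, mul_zero]),
    Finset.sum_eq_zero (s := (Finset.univ : Finset (Fin k))) (fun x _ => by rw [bd_lr, zero_mul]),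
    add_zero, add_zero, Fintype.sum_prod_type, Fintype.sum_prod_type] at h1
  rw [Matrix.mul_apply, Matrix.mul_apply]
  have h2 : ∀ c : Fin 2, ∑ y : Fin m, N (Sum.inl (a, j)) (Sum.inl (c, y)) *
      (bd A ε : Matrix ((Fin 2 × Fin m) ⊕ Fin k) _ F) (Sum.inl (c, y)) (Sum.inl (b, j)) =
      N (Sum.inl (a, j)) (Sum.inl (c, j)) * A j c b := by
    intro c
    rw [Finset.sum_eq_single j]
    · rw [bd_inl, if_pos rfl]
    · intro y _ hy
      rw [bd_inl, if_neg hy, mul_zero]
    · intro h3; exact absurd (Finset.mem_univ _) h3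
  have h3 : ∀ c : Fin 2, ∑ y : Fin m, (bd A ε : Matrix ((Fin 2 × Fin m) ⊕ Fin k) _ F) (Sum.inl (a, j)) (Sum.inl (c, y)) *
      N (Sum.inl (c, y)) (Sum.inl (b, j)) = A j a c * N (Sum.inl (c, j)) (Sum.inl (b, j)) := by
    intro c
    rw [Finset.sum_eq_single j]
    · rw [bd_inl, if_pos rfl]
    · intro y _ hy
      rw [bd_inl, if_neg (Ne.symm hy), zero_mul]
    · intro h3; exact absurd (Finset.mem_univ _) h3
  rw [Finset.sum_congr rfl fun c _ => h2 c, Finset.sum_congr rfl fun c _ => h3 c] at h1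
  exact h1

end Bd

section Main

variable {F : Type} [Field F] [Fintype F] {p : ℕ} [Fact p.Prime] [CharP F p] {m k : ℕ} {X : Type*} [Group X] [Finite X]
  {s d : F}

/-- the scalar of the coordinate `x` for the set `S` of planes -/
def sg (F : Type*) [Field F] {m k : ℕ} (S : Finset (Fin m)) : (Fin 2 × Fin m) ⊕ Fin k → F :=
  Sum.elim (fun x => if x.2 ∈ S then -1 else 1) fun _ => 1

/-- the plane of a coordinate -/
def pl : (Fin 2 × Fin m) ⊕ Fin k → Option (Fin m) := Sum.elim (fun x => some x.2) fun _ => none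

/-- sets of planes of the right parity separate the planes -/
theorem exists_sep (hk : k ≤ 1) (hm : k = 0 → 3 ≤ m) {x y : (Fin 2 × Fin m) ⊕ Fin k} (hxy : pl x ≠ pl y) :
    ∃ S : Finset (Fin m), (k = 0 → S.card = 2) ∧ (k = 1 → S.card = 1) ∧
      ((∃ j ∈ S, pl x = some j) ∧ (∀ j ∈ S, pl y ≠ some j) ∨ (∃ j ∈ S, pl y = some j) ∧ (∀ j ∈ S, pl x ≠ some j)) := by
  classical
  rcases Nat.eq_zero_or_pos k with h0 | h0
  · subst h0
    have h3 := hm rfl
    rcases x with ⟨a, j⟩ | x
    swap
    · exact x.elim0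
    rcases y with ⟨b, l⟩ | y
    swap
    · exact y.elim0
    have hjl : j ≠ l := fun h => hxy (by rw [h]; rfl)
    obtain ⟨i, hi⟩ : ∃ i : Fin m, i ∉ ({j, l} : Finset (Fin m)) := by
      by_contra hcon
      push Not at hcon
      have h4 : (Finset.univ : Finset (Fin m)) ⊆ {j, l} := fun i _ => hcon i
      have h5 := Finset.card_le_card h4
      rw [Finset.card_univ, Fintype.card_fin] at h5
      have h6 := Finset.card_le_two (a := j) (b := l)
      omega
    rw [Finset.mem_insert, Finset.mem_singleton, not_or] at hi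
    refine ⟨{j, i}, fun _ => Finset.card_pair (Ne.symm hi.1), fun h => absurd h (by norm_num),
      Or.inl ⟨⟨j, Finset.mem_insert_self _ _, rfl⟩, ?_⟩⟩
    intro j' hj' he
    have he' : l = j' := Option.some.inj he
    rw [← he', Finset.mem_insert, Finset.mem_singleton] at hj'
    rcases hj' with h | h
    · exact hjl h.symm
    · exact hi.2 h.symm
  · have hk1 : k = 1 := by omega
    rcases x with ⟨a, j⟩ | x
    · refine ⟨{j}, fun h => absurd h (by omega), fun _ => Finset.card_singleton j,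
        Or.inl ⟨⟨j, Finset.mem_singleton_self _, rfl⟩, ?_⟩⟩
      intro j' hj' he
      rw [Finset.mem_singleton] at hj'
      subst hj'
      exact hxy he.symm
    · rcases y with ⟨b, l⟩ | y
      · refine ⟨{l}, fun h => absurd h (by omega), fun _ => Finset.card_singleton l,
          Or.inr ⟨⟨l, Finset.mem_singleton_self _, rfl⟩, ?_⟩⟩
        intro j' _ he
        cases he
      · exact absurd rfl hxy

theorem sg_ne {S : Finset (Fin m)} {x y : (Fin 2 × Fin m) ⊕ Fin k}
    (h : (∃ j ∈ S, pl x = some j) ∧ (∀ j ∈ S, pl y ≠ some j)) : sg F S x = -1 ∧ sg F S y = 1 := by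
  obtain ⟨⟨j, hj, hx⟩, hy⟩ := h
  constructor
  · rcases x with ⟨a, j'⟩ | x
    · have : j' = j := Option.some.inj hx
      subst this
      show (if j' ∈ S then (-1 : F) else 1) = -1
      rw [if_pos hj]
    · cases hx
  · rcases y with ⟨a, j'⟩ | y
    · show (if j' ∈ S then (-1 : F) else 1) = 1
      rw [if_neg fun h => hy j' h rfl]
    · rfl

/-- **`CoreRow` from block matrices on planes.** -/
theorem coreRow_planes (hk : k ≤ 1) (hm : k = 0 → 3 ≤ m) (h2 : (2 : F) ≠ 0) (hs : s ^ 2 = 2 * d) (hd : d ^ 2 = 1)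
    (ρ : X →* Matrix ((Fin 2 × Fin m) ⊕ Fin k) ((Fin 2 × Fin m) ⊕ Fin k) F) (hρ : Function.Injective ρ)
    (hX : ∀ (A : Fin m → Matrix (Fin 2) (Fin 2) F) (ε : F), (∀ j, ∃ i l : ℕ, A j = wM s ^ i * rM ^ l) →
      (ε = 1 ∨ ε = -1) → (∏ j, (A j).det) * ε ^ k = 1 → ∃ x : X, ρ x = bd A ε) : CoreRow p X := by
  classical
  obtain ⟨e, he⟩ := exists_e h2 hs hd
  have hw4 := wM_four h2 hs hd
  have hw8 := wM_eight h2 hs hd
  have hne1 : (-1 : F) ≠ 1 := by
    intro h
    apply h2
    rw [← one_add_one_eq_two, ← neg_eq_iff_add_eq_zero]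
    exact h
  let CT : X → Prop := fun x => ∃ (A : Fin m → Matrix (Fin 2) (Fin 2) F) (ε : F), (∀ j, InD s (A j)) ∧
    (ε = 1 ∨ ε = -1) ∧ ρ x = bd A ε
  have hC1 : CT 1 := ⟨fun _ => 1, 1, fun _ => InD.one, Or.inl rfl, by rw [map_one, bd_one]⟩
  have hCm : ∀ x y, CT x → CT y → CT (x * y) := by
    rintro x y ⟨A, ε, hA, hε, hx⟩ ⟨B, δ, hB, hδ, hy⟩
    refine ⟨fun j => A j * B j, ε * δ, fun j => (hA j).mul he (hB j), ?_, by rw [map_mul, hx, hy, bd_mul]⟩
    rcases hε with rfl | rfl <;> rcases hδ with rfl | rfl <;> simp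
  have hCp : ∀ x, CT x → ∀ n : ℕ, CT (x ^ n) := by
    intro x hx n
    induction n with
    | zero => rw [pow_zero]; exact hC1
    | succ n ih => rw [pow_succ]; exact hCm _ _ ih hx
  have hC16 : ∀ x, CT x → x ^ 16 = 1 := by
    rintro x ⟨A, ε, hA, hε, hx⟩
    apply hρ
    rw [map_pow, hx, bd_pow, map_one, ← bd_one]
    congr 1
    · funext j
      exact (hA j).pow_eq he hw8
    · rcases hε with rfl | rfl
      · rw [one_pow]
      · norm_num
  let T : Subgroup X :=
    { carrier := {x | CT x}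
      one_mem' := hC1
      mul_mem' := fun {x y} hx hy => hCm x y hx hy
      inv_mem' := by
        intro x hx
        have h1 : x⁻¹ = x ^ 15 := by
          rw [inv_eq_iff_mul_eq_one, ← pow_succ']
          exact hC16 x hx
        show CT x⁻¹
        rw [h1]
        exact hCp x hx 15 }
  have hTmem : ∀ x, x ∈ T ↔ CT x := fun x => Iff.rfl
  -- the elements of `T`
  have hTex : ∀ (A : Fin m → Matrix (Fin 2) (Fin 2) F) (ε : F), (∀ j, InD s (A j)) → (ε = 1 ∨ ε = -1) →
      (∏ j, (A j).det) * ε ^ k = 1 → ∃ x ∈ T, ρ x = bd A ε := by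
    intro A ε hA hε hdet
    obtain ⟨x, hx⟩ := hX A ε hA hε hdet
    exact ⟨x, ⟨A, ε, hA, hε, hx⟩, hx⟩
  have hdet : ∀ (S : Finset (Fin m)) (B : Matrix (Fin 2) (Fin 2) F),
      ∏ j, (if j ∈ S then B else 1 : Matrix (Fin 2) (Fin 2) F).det = B.det ^ S.card := by
    intro S B
    have h1 : ∀ j, (if j ∈ S then B else 1 : Matrix (Fin 2) (Fin 2) F).det = if j ∈ S then B.det else 1 := by
      intro j
      split_ifs
      · rfl
      · exact Matrix.det_one
    rw [Finset.prod_congr rfl fun j _ => h1 j, Finset.prod_ite_mem, Finset.univ_inter, Finset.prod_const]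
  -- parity
  have hexS : ∀ (S : Finset (Fin m)) (B : Matrix (Fin 2) (Fin 2) F), InD s B → (B.det = 1 ∨ B.det = -1) →
      (k = 0 → S.card = 2) → (k = 1 → S.card = 1) →
      ∃ x ∈ T, ∃ ε : F, (ε = 1 ∨ ε = -1) ∧ ρ x = bd (fun j => if j ∈ S then B else 1) ε := by
    intro S B hB hBd hS0 hS1
    have hD : ∀ j, InD s (if j ∈ S then B else 1 : Matrix (Fin 2) (Fin 2) F) := by
      intro j
      split_ifs
      · exact hB
      · exact InD.one
    have hB2 : B.det ^ 2 = 1 := by
      rcases hBd with h | h <;> rw [h] <;> norm_num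
    obtain ⟨x, hx, hx'⟩ := hTex (fun j => if j ∈ S then B else 1) B.det hD hBd (by
      rw [hdet]
      rcases Nat.eq_zero_or_pos k with h0 | h0
      · rw [hS0 h0, h0, pow_zero, mul_one, hB2]
      · have h1 : k = 1 := by omega
        rw [hS1 h1, h1, pow_one, ← pow_two, hB2])
    exact ⟨x, hx, B.det, hBd, hx'⟩
  have hdw : (wM s : Matrix (Fin 2) (Fin 2) F).det = 1 ∨ (wM s : Matrix (Fin 2) (Fin 2) F).det = -1 := by
    rw [det_wM h2 hs]
    exact d_cases hd
  -- fourth powers
  have hpow4 : ∀ (S : Finset (Fin m)) (ε : F), (ε = 1 ∨ ε = -1) →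
      (bd (fun j => if j ∈ S then wM s else 1) ε : Matrix ((Fin 2 × Fin m) ⊕ Fin k) _ F) ^ 4 =
        Matrix.diagonal (sg F S) := by
    intro S ε hε
    have h1 : ε ^ 4 = 1 := by
      rcases hε with rfl | rfl <;> norm_num
    rw [bd_pow, h1]
    have h3 : (fun j => (if j ∈ S then wM s else 1 : Matrix (Fin 2) (Fin 2) F) ^ 4) =
        fun j => (if j ∈ S then (-1 : F) else 1) • (1 : Matrix (Fin 2) (Fin 2) F) := by
      funext j
      split_ifs
      · rw [hw4, neg_smul, one_smul]
      · rw [one_pow, one_smul]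
    rw [h3, bd_diag]
    rfl
  -- a matrix commuting with `diagonal (sg S)`
  have hzero : ∀ (N : Matrix ((Fin 2 × Fin m) ⊕ Fin k) ((Fin 2 × Fin m) ⊕ Fin k) F),
      (∀ S : Finset (Fin m), (k = 0 → S.card = 2) → (k = 1 → S.card = 1) →
        N * Matrix.diagonal (sg F S) = Matrix.diagonal (sg F S) * N) → ∀ x y, pl x ≠ pl y → N x y = 0 := by
    intro N hN x y hxy
    obtain ⟨S, hS0, hS1, hS⟩ := exists_sep hk hm hxy
    have h1 := congrFun (congrFun (hN S hS0 hS1) x) y
    rw [Matrix.mul_diagonal, Matrix.diagonal_mul] at h1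
    rcases hS with h | h
    · obtain ⟨hx, hy⟩ := sg_ne (F := F) h
      rw [hx, hy] at h1
      have h3 : (2 : F) * N x y = 0 := by linear_combination h1
      exact (mul_eq_zero.1 h3).resolve_left h2
    · obtain ⟨hx, hy⟩ := sg_ne (F := F) h
      rw [hx, hy] at h1
      have h3 : (2 : F) * N x y = 0 := by linear_combination -h1
      exact (mul_eq_zero.1 h3).resolve_left h2
  refine ⟨T, ?_, ?_⟩
  · rintro ⟨x, hx⟩
    refine ⟨4, ?_⟩
    apply Subtype.ext
    show x ^ 2 ^ 4 = 1
    exact hC16 x hx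
  · intro H hTH hp g hg c hc
    -- `c` is block diagonal
    have hcz : ∀ x y, pl x ≠ pl y → ρ c x y = 0 := by
      apply hzero
      intro S hS0 hS1
      obtain ⟨y, hy, ε, hε, hy'⟩ := hexS S (wM s) InD.w hdw hS0 hS1
      have hyH : y ∈ H := hTH hy
      let σ : Representation F H ((Fin 2 × Fin m) ⊕ Fin k → F) :=
        ((Matrix.toLinAlgEquiv' : Matrix ((Fin 2 × Fin m) ⊕ Fin k) _ F ≃ₐ[F] _) :
          Matrix ((Fin 2 × Fin m) ⊕ Fin k) _ F →* _).comp (ρ.comp H.subtype)
      have hσ : ∀ y : H, σ y = Matrix.toLinAlgEquiv' (ρ y) := fun y => rfl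
      have hσ1 : ∀ y : H, σ y = 1 → y = 1 := by
        intro y hy
        rw [hσ] at hy
        have h1 : ρ y = 1 := by
          apply (Matrix.toLinAlgEquiv' : Matrix ((Fin 2 × Fin m) ⊕ Fin k) _ F ≃ₐ[F] _).injective
          rw [hy, map_one]
        apply Subtype.ext
        apply hρ
        rw [h1]
        exact (map_one ρ).symm
      have h5 : (⟨y, hyH⟩ : H) ^ 2 ^ 2 ∈ Cfsg.pCore 2 H := by
        refine Cfsg.Agent.H408.Hall.MTwo.mem_pCore_of_aeval
          (g := (Polynomial.X ^ 2 + (C (-s) * Polynomial.X + C d)) * ((Polynomial.X - C 1) * (Polynomial.X + C 1)))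
          hp σ hσ1 ⟨4, ?_⟩ ?_ ?_ ?_
        · apply Subtype.ext
          exact hC16 y hy
        · refine mul_ne_zero ?_ (mul_ne_zero (X_sub_C_ne_zero 1) (X_add_C_ne_zero 1))
          intro h
          have h6 := congrArg (fun f : F[X] => f.coeff 2) h
          simp at h6
        · have hq : (Polynomial.X ^ 2 + (C (-s) * Polynomial.X + C d) : F[X]).natDegree ≤ 2 := by
            refine (natDegree_add_le _ _).trans (max_le (natDegree_X_pow_le 2) ?_)
            refine (natDegree_add_le _ _).trans (max_le ?_ ?_)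
            · exact (natDegree_C_mul_le _ _).trans (by rw [natDegree_X]; norm_num)
            · rw [natDegree_C]; norm_num
          refine natDegree_mul_le.trans ?_
          refine (add_le_add hq natDegree_mul_le).trans ?_
          rw [natDegree_X_sub_C, natDegree_X_add_C]
          norm_num
        · rw [hσ]
          rw [show (Matrix.toLinAlgEquiv' (ρ ((⟨y, hyH⟩ : H) : X))) =
            (Matrix.toLinAlgEquiv' : Matrix ((Fin 2 × Fin m) ⊕ Fin k) _ F ≃ₐ[F] _).toAlgHom
              (bd (fun j => if j ∈ S then wM s else 1) ε) by rw [← hy']; rfl, aeval_algHom_apply]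
          have h3 : aeval (bd (fun j => if j ∈ S then wM s else 1) ε :
              Matrix ((Fin 2 × Fin m) ⊕ Fin k) ((Fin 2 × Fin m) ⊕ Fin k) F)
              ((Polynomial.X ^ 2 + (C (-s) * Polynomial.X + C d)) * ((Polynomial.X - C 1) * (Polynomial.X + C 1))) = 0 := by
            have e1 : ∀ a : F, (algebraMap F (Matrix ((Fin 2 × Fin m) ⊕ Fin k) ((Fin 2 × Fin m) ⊕ Fin k) F)) a =
                bd (fun _ => a • 1) a := by
              intro a
              rw [Algebra.algebraMap_eq_smul_one, ← bd_one, bd_smul, mul_one]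
            have e2 : ∀ N : Matrix ((Fin 2 × Fin m) ⊕ Fin k) ((Fin 2 × Fin m) ⊕ Fin k) F, N - bd (fun _ => (1 : F) • 1) 1 =
                N + bd (fun _ => (-1 : F) • 1) (-1) := by
              intro N
              rw [sub_eq_add_neg]
              congr 1
              have h7 : -(bd (fun _ => (1 : F) • 1) 1 : Matrix ((Fin 2 × Fin m) ⊕ Fin k) _ F) =
                (-1 : F) • (bd (fun _ => (1 : F) • 1) 1 : Matrix ((Fin 2 × Fin m) ⊕ Fin k) _ F) :=
                (neg_one_smul F _).symm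
              rw [h7, bd_smul]
              simp
            rw [map_mul, map_mul, map_add, map_add, map_mul, map_sub, map_add, map_pow, aeval_X, aeval_C, aeval_C,
              aeval_C, e1, e1, e1, e2, bd_pow, bd_mul, bd_add, bd_add, bd_add, bd_add, bd_mul, bd_mul, ← bd_zero]
            congr 1
            · funext j
              by_cases hj : j ∈ S
              · simp only [if_pos hj]
                have h8 := wM_min (F := F) (s := s) (d := d) h2 hs
                have h9 : (wM s : Matrix (Fin 2) (Fin 2) F) ^ 2 + ((-s) • (1 : Matrix (Fin 2) (Fin 2) F) * wM s + d • 1) = 0 := by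
                  rw [← h8, smul_mul_assoc, one_mul, neg_smul]
                  abel
                rw [h9, zero_mul]
              · simp only [if_neg hj]
                have h9 : (1 : Matrix (Fin 2) (Fin 2) F) + (-1 : F) • 1 = 0 := by
                  rw [neg_smul, one_smul, add_neg_cancel]
                rw [h9, zero_mul, mul_zero]
            · rcases hε with h | h
              · rw [h]; ring
              · rw [h]; ring
          rw [h3, map_zero]
      have h6 := hc _ h5
      have h7 := congrArg ρ h6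
      rw [map_mul, map_mul] at h7
      have h8 : ρ (((⟨y, hyH⟩ : H) ^ 2 ^ 2 : H) : X) = Matrix.diagonal (sg F S) := by
        show ρ (y ^ 2 ^ 2) = _
        rw [map_pow, hy', ← hpow4 S ε hε]
        norm_num
      rw [h8] at h7
      exact h7
    -- `g` is block diagonal
    have hgc : ∀ x ∈ T, ρ g * ρ x = ρ x * ρ g := by
      intro x hx
      rw [← map_mul, ← map_mul, hg x hx]
    have hgz : ∀ x y, pl x ≠ pl y → ρ g x y = 0 := by
      apply hzero
      intro S hS0 hS1
      obtain ⟨y, hy, ε, hε, hy'⟩ := hexS S (wM s) InD.w hdw hS0 hS1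
      have h6 := hgc (y ^ 4) (pow_mem hy 4)
      rw [map_pow, hy', hpow4 S ε hε] at h6
      exact h6
    -- the blocks of `g` are scalar
    have hgs : ∀ j : Fin m, ρ g (Sum.inl (0, j)) (Sum.inl (1, j)) = 0 ∧ ρ g (Sum.inl (1, j)) (Sum.inl (0, j)) = 0 ∧
        ρ g (Sum.inl (1, j)) (Sum.inl (1, j)) = ρ g (Sum.inl (0, j)) (Sum.inl (0, j)) := by
      intro j
      -- `w²` on the plane `j`
      obtain ⟨y, hy, hy'⟩ := hTex (fun l => if l ∈ ({j} : Finset (Fin m)) then wM s ^ 2 else 1) 1 (by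
        intro l
        split_ifs
        · exact ⟨2, 0, by rw [pow_zero, mul_one]⟩
        · exact InD.one) (Or.inl rfl) (by
        rw [hdet, Finset.card_singleton, pow_one, Matrix.det_pow, det_wM h2 hs, hd, one_pow, one_mul])
      have h6 := hgc y hy
      rw [hy'] at h6
      have h7 := block_comm h6 j
      rw [if_pos (Finset.mem_singleton_self j)] at h7
      -- `r` on the plane `j`
      obtain ⟨S, hjS, hS0, hS1⟩ : ∃ S : Finset (Fin m), j ∈ S ∧ (k = 0 → S.card = 2) ∧ (k = 1 → S.card = 1) := by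
        rcases Nat.eq_zero_or_pos k with h0 | h0
        · have h3 := hm h0
          obtain ⟨l, hl⟩ : ∃ l : Fin m, l ≠ j := by
            by_contra hcon
            push Not at hcon
            have h4 : (Finset.univ : Finset (Fin m)) ⊆ {j} := fun i _ => Finset.mem_singleton.2 (hcon i)
            have h5 := Finset.card_le_card h4
            rw [Finset.card_univ, Fintype.card_fin, Finset.card_singleton] at h5
            omega
          exact ⟨{j, l}, Finset.mem_insert_self _ _, fun _ => Finset.card_pair (Ne.symm hl), fun h => absurd h (by omega)⟩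
        · exact ⟨{j}, Finset.mem_singleton_self j, fun h => absurd h (by omega), fun _ => Finset.card_singleton j⟩
      obtain ⟨z, hz, δ, hδ, hz'⟩ := hexS S rM InD.r (Or.inr det_rM) hS0 hS1
      have h8 := hgc z hz
      rw [hz'] at h8
      have h9 := block_comm h8 j
      rw [if_pos hjS] at h9
      exact scalar_of_comm h2 hs hd h7 h9
    -- `g` is diagonal
    have hgd : ρ g = Matrix.diagonal fun x => ρ g x x := by
      ext x y
      rw [Matrix.diagonal_apply]
      split_ifs with hxy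
      · rw [hxy]
      · by_cases hp' : pl x = pl y
        · rcases x with ⟨a, j⟩ | x
          · rcases y with ⟨b, l⟩ | y
            · have hjl : j = l := Option.some.inj hp'
              subst hjl
              have hab : a ≠ b := fun h => hxy (by rw [h])
              obtain ⟨h5, h6, -⟩ := hgs j
              fin_cases a <;> fin_cases b
              · exact absurd rfl hab
              · exact h5
              · exact h6
              · exact absurd rfl hab
            · cases hp'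
          · rcases y with ⟨b, l⟩ | y
            · cases hp'
            · exfalso
              apply hxy
              congr 1
              have hsub : Subsingleton (Fin k) := by
                rcases Nat.eq_zero_or_pos k with h0 | h0
                · subst h0; infer_instance
                · have h1 : k = 1 := by omega
                  subst h1; infer_instance
              exact Subsingleton.elim _ _
        · exact hgz x y hp'
    -- the values on a plane
    have hgv : ∀ x y, pl x = pl y → ρ g x x = ρ g y y := by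
      intro x y hxy
      rcases x with ⟨a, j⟩ | x
      · rcases y with ⟨b, l⟩ | y
        · have hjl : j = l := Option.some.inj hxy
          subst hjl
          obtain ⟨-, -, h6⟩ := hgs j
          fin_cases a <;> fin_cases b
          · rfl
          · exact h6.symm
          · exact h6
          · rfl
        · cases hxy
      · rcases y with ⟨b, l⟩ | y
        · cases hxy
        · have hsub : Subsingleton (Fin k) := by
            rcases Nat.eq_zero_or_pos k with h0 | h0
            · subst h0; infer_instance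
            · have h1 : k = 1 := by omega
              subst h1; infer_instance
          rw [Subsingleton.elim x y]
    apply hρ
    rw [map_mul, map_mul]
    ext x y
    rw [hgd, Matrix.diagonal_mul, Matrix.mul_diagonal]
    by_cases hxy : pl x = pl y
    · rw [hgv x y hxy, mul_comm]
    · rw [hcz x y hxy, mul_zero, zero_mul]

end Main

end Cfsg.Agent.H442.Hall.Plane
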