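import Cfsg.Agent.H442.Hall.PlaneSU

/-!
# S2223, N3: `CoreRow` for `SL_n(q)`, `q = 3 mod 4` (helper442)
-/

set_option autoImplicit false

namespace Cfsg.Agent.H442.Hall.Plane

open Subgroup Cfsg.Agent.H125.Hall

/-- the scalars -/
theorem exists_sd_sl {F : Type} [Field F] [Fintype F] (h4 : Fintype.card F % 4 = 3) (h2 : (2 : F) ≠ 0) :
    ∃ s d : F, s ^ 2 = 2 * d ∧ d ^ 2 = 1 := by
  obtain ⟨t, ht⟩ : ∃ t, Fintype.card F = 4 * t + 3 := ⟨Fintype.card F / 4, by omega⟩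
  have hη : ((2 : F) ^ (2 * t + 1)) ^ 2 = 1 := by
    rw [← pow_mul]
    have h1 := FiniteField.pow_card_sub_one_eq_one (2 : F) h2
    rw [← h1, ht]
    congr 1
    omega
  obtain ⟨η, hη'⟩ : ∃ η : F, η = 2 ^ (2 * t + 1) := ⟨_, rfl⟩
  rw [← hη'] at hη
  have hη0 : η ≠ 0 := by
    rintro h
    rw [h] at hη
    simp at hη
  have hchar : ringChar F ≠ 2 := by
    intro h
    apply h2
    have h6 : ((2 : ℕ) : F) = 0 := by
      rw [← h]; exact ringChar.Nat.cast_ringChar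
    exact_mod_cast h6
  have hsq : IsSquare (2 * η) := by
    rw [FiniteField.isSquare_iff hchar (mul_ne_zero h2 hη0), ht]
    have h7 : (4 * t + 3) / 2 = 2 * t + 1 := by omega
    rw [h7, mul_pow, ← hη', pow_succ, pow_mul, hη, one_pow, one_mul, ← pow_two, hη]
  obtain ⟨s, hs⟩ := hsq
  exact ⟨s, η, by rw [hs, pow_two], hη⟩

/-- `CoreRow` for `SL_n(q)`, `q = 3 mod 4` -/
theorem coreRow_sl_three {F : Type} [Field F] [Fintype F] {p : ℕ} [Fact p.Prime] [CharP F p]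
    (h4 : Fintype.card F % 4 = 3) {n : ℕ} (hn : 3 ≤ n) (hn4 : n ≠ 4) :
    CoreRow p (Matrix.SpecialLinearGroup (Fin n) F) := by
  have h2 : (2 : F) ≠ 0 := by
    refine Ring.two_ne_zero ?_
    rw [Ne, FiniteField.even_card_iff_char_two]
    omega
  obtain ⟨s, d, hs, hd⟩ := exists_sd_sl h4 h2
  obtain ⟨e⟩ := exists_equiv n
  let ρ : Matrix.SpecialLinearGroup (Fin n) F →*
      Matrix ((Fin 2 × Fin (n / 2)) ⊕ Fin (n % 2)) ((Fin 2 × Fin (n / 2)) ⊕ Fin (n % 2)) F :=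
    ((Matrix.reindexAlgEquiv F F e : Matrix (Fin n) (Fin n) F ≃ₐ[F] _) : Matrix (Fin n) (Fin n) F →* _).comp
      (Cfsg.slToMat n F)
  refine coreRow_planes (m := n / 2) (k := n % 2) (by omega) (by omega) h2 hs hd ρ ?_ ?_
  · intro x y hxy
    have h1 : Cfsg.slToMat n F x = Cfsg.slToMat n F y := (Matrix.reindexAlgEquiv F F e).injective hxy
    exact Subtype.ext h1
  · intro A ε hA hε hdet
    have hdet' : ((bd A ε).submatrix e e).det = 1 := by
      rw [Matrix.det_submatrix_equiv_self, det_bd, hdet]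
    refine ⟨⟨(bd A ε).submatrix e e, hdet'⟩, ?_⟩
    show Matrix.reindexAlgEquiv F F e ((bd A ε).submatrix e e) = bd A ε
    rw [Matrix.coe_reindexAlgEquiv, Matrix.reindex_apply, Matrix.submatrix_submatrix]
    simp

end Cfsg.Agent.H442.Hall.Plane
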