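import Cfsg.Prelude.Def_Classical
import Cfsg.Agent.H442.Hall.Plane

/-!
# S2223, N3: `CoreRow` for `SU_n(q)`, `q = 1 mod 4` (helper442)
-/

set_option autoImplicit false

namespace Cfsg.Agent.H442.Hall.Plane

open Subgroup Cfsg.Agent.H125.Hall

variable {F : Type} [Field F] {n m k q : ℕ}

theorem exists_equiv (n : ℕ) : Nonempty (Fin n ≃ (Fin 2 × Fin (n / 2)) ⊕ Fin (n % 2)) := by
  refine ⟨Fintype.equivOfCardEq ?_⟩
  rw [Fintype.card_fin, Fintype.card_sum, Fintype.card_prod, Fintype.card_fin, Fintype.card_fin, Fintype.card_fin]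
  omega

theorem det_bd (A : Fin m → Matrix (Fin 2) (Fin 2) F) (ε : F) :
    (bd A ε : Matrix ((Fin 2 × Fin m) ⊕ Fin k) _ F).det = (∏ j, (A j).det) * ε ^ k := by
  unfold bd
  rw [Matrix.det_fromBlocks_zero₂₁, Matrix.det_blockDiagonal, Matrix.det_diagonal, Finset.prod_const,
    Finset.card_univ, Fintype.card_fin]

theorem bd_mulVec_inl (A : Fin m → Matrix (Fin 2) (Fin 2) F) (ε : F) (u : (Fin 2 × Fin m) ⊕ Fin k → F) (a : Fin 2)
    (j : Fin m) : (bd A ε).mulVec u (Sum.inl (a, j)) = (A j).mulVec (fun b => u (Sum.inl (b, j))) a := by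
  show ∑ x, (bd A ε : Matrix ((Fin 2 × Fin m) ⊕ Fin k) _ F) (Sum.inl (a, j)) x * u x = ∑ b, A j a b * u (Sum.inl (b, j))
  rw [Fintype.sum_sum_type, Fintype.sum_prod_type]
  rw [Finset.sum_eq_zero (s := (Finset.univ : Finset (Fin k))) (fun x _ => by rw [bd_lr, zero_mul]), add_zero]
  refine Finset.sum_congr rfl fun b _ => ?_
  rw [Finset.sum_eq_single j]
  · rw [bd_inl, if_pos rfl]
  · intro y _ hy
    rw [bd_inl, if_neg (Ne.symm hy), zero_mul]
  · intro h; exact absurd (Finset.mem_univ _) h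

theorem bd_mulVec_inr (A : Fin m → Matrix (Fin 2) (Fin 2) F) (ε : F) (u : (Fin 2 × Fin m) ⊕ Fin k → F) (i : Fin k) :
    (bd A ε).mulVec u (Sum.inr i) = ε * u (Sum.inr i) := by
  show ∑ x, (bd A ε : Matrix ((Fin 2 × Fin m) ⊕ Fin k) _ F) (Sum.inr i) x * u x = _
  rw [Fintype.sum_sum_type]
  rw [Finset.sum_eq_zero (s := (Finset.univ : Finset (Fin 2 × Fin m))) (fun x _ => by rw [bd_rl, zero_mul]), zero_add,
    Finset.sum_eq_single i]
  · rw [bd_inr, if_pos rfl]
  · intro y _ hy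
    rw [bd_inr, if_neg (Ne.symm hy), zero_mul]
  · intro h; exact absurd (Finset.mem_univ _) h

/-- the hermitian form in dimension two is preserved -/
def Pres (q : ℕ) (A : Matrix (Fin 2) (Fin 2) F) : Prop :=
  ∀ u v : Fin 2 → F, ∑ i, A.mulVec u i * (A.mulVec v i) ^ q = ∑ i, u i * (v i) ^ q

theorem Pres.one : Pres q (1 : Matrix (Fin 2) (Fin 2) F) := fun u v => by rw [Matrix.one_mulVec, Matrix.one_mulVec]

theorem Pres.mul {A B : Matrix (Fin 2) (Fin 2) F} (hA : Pres q A) (hB : Pres q B) : Pres q (A * B) := fun u v => by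
  rw [← Matrix.mulVec_mulVec, ← Matrix.mulVec_mulVec, hA, hB]

theorem Pres.pow {A : Matrix (Fin 2) (Fin 2) F} (hA : Pres q A) (n : ℕ) : Pres q (A ^ n) := by
  induction n with
  | zero => rw [pow_zero]; exact Pres.one
  | succ n ih => rw [pow_succ]; exact ih.mul hA

theorem pres_rM (hodd : Odd q) : Pres q (rM : Matrix (Fin 2) (Fin 2) F) := by
  intro u v
  rw [Fin.sum_univ_two, Fin.sum_univ_two]
  have h0 : ∀ u : Fin 2 → F, (rM : Matrix (Fin 2) (Fin 2) F).mulVec u 0 = u 0 := by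
    intro u
    show ∑ x, (rM : Matrix (Fin 2) (Fin 2) F) 0 x * u x = _
    rw [Fin.sum_univ_two]
    show 1 * u 0 + 0 * u 1 = u 0
    ring
  have h1 : ∀ u : Fin 2 → F, (rM : Matrix (Fin 2) (Fin 2) F).mulVec u 1 = - u 1 := by
    intro u
    show ∑ x, (rM : Matrix (Fin 2) (Fin 2) F) 1 x * u x = _
    rw [Fin.sum_univ_two]
    show 0 * u 0 + -1 * u 1 = - u 1
    ring
  rw [h0, h0, h1, h1, hodd.neg_pow]
  ring

theorem pres_wM {s : F} (h2 : (2 : F) ≠ 0) (hodd : Odd q) (hadd : ∀ x y : F, (x + y) ^ q = x ^ q + y ^ q)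
    (h2q : (2 : F) ^ q = 2) (hs : s * s ^ q = 2) : Pres q (wM s : Matrix (Fin 2) (Fin 2) F) := by
  intro u v
  rw [Fin.sum_univ_two, Fin.sum_univ_two]
  have h0 : ∀ u : Fin 2 → F, (wM s : Matrix (Fin 2) (Fin 2) F).mulVec u 0 = s / 2 * (u 0 + u 1) := by
    intro u
    show ∑ x, (wM s : Matrix (Fin 2) (Fin 2) F) 0 x * u x = _
    rw [Fin.sum_univ_two]
    show s / 2 * u 0 + s / 2 * u 1 = _
    ring
  have h1 : ∀ u : Fin 2 → F, (wM s : Matrix (Fin 2) (Fin 2) F).mulVec u 1 = s / 2 * (-u 0 + u 1) := by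
    intro u
    show ∑ x, (wM s : Matrix (Fin 2) (Fin 2) F) 1 x * u x = _
    rw [Fin.sum_univ_two]
    show -(s / 2) * u 0 + s / 2 * u 1 = _
    ring
  rw [h0, h0, h1, h1, mul_pow, mul_pow, hadd, hadd, hodd.neg_pow, div_pow, h2q]
  have h3 : s / 2 * (s ^ q / 2) * 2 = 1 := by
    field_simp
    linear_combination hs
  linear_combination (u 0 * v 0 ^ q + u 1 * v 1 ^ q) * h3

/-- block matrices preserve the form -/
theorem bd_pres {A : Fin m → Matrix (Fin 2) (Fin 2) F} {ε : F} (hA : ∀ j, Pres q (A j)) (hε : ε * ε ^ q = 1)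
    (u v : (Fin 2 × Fin m) ⊕ Fin k → F) :
    ∑ x, (bd A ε).mulVec u x * ((bd A ε).mulVec v x) ^ q = ∑ x, u x * (v x) ^ q := by
  rw [Fintype.sum_sum_type, Fintype.sum_sum_type, Fintype.sum_prod_type_right, Fintype.sum_prod_type_right]
  congr 1
  · refine Finset.sum_congr rfl fun j _ => ?_
    have h1 := hA j (fun b => u (Sum.inl (b, j))) (fun b => v (Sum.inl (b, j)))
    rw [← h1]
    refine Finset.sum_congr rfl fun a _ => ?_
    rw [bd_mulVec_inl, bd_mulVec_inl]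
  · refine Finset.sum_congr rfl fun i _ => ?_
    rw [bd_mulVec_inr, bd_mulVec_inr, mul_pow]
    linear_combination (u (Sum.inr i) * v (Sum.inr i) ^ q) * hε

/-- the scalars -/
theorem exists_sd [Fintype F] (hq : Fintype.card F = q ^ 2) (h4 : q % 4 = 1) (h2 : (2 : F) ≠ 0)
    (h2q : (2 : F) ^ q = 2) : ∃ s d : F, s ^ 2 = 2 * d ∧ d ^ 2 = 1 ∧ s * s ^ q = 2 := by
  obtain ⟨t, ht⟩ : ∃ t, q = 4 * t + 1 := ⟨q / 4, by omega⟩
  have hη : ((2 : F) ^ (2 * t)) ^ 2 = 1 := by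
    rw [← pow_mul]
    have h1 : (2 : F) ^ (2 * t * 2) * 2 = 1 * 2 := by
      rw [← pow_succ, one_mul]
      have : 2 * t * 2 + 1 = q := by omega
      rw [this, h2q]
    exact mul_right_cancel₀ h2 h1
  obtain ⟨η, hη'⟩ : ∃ η : F, η = 2 ^ (2 * t) := ⟨_, rfl⟩
  rw [← hη'] at hη
  have hη0 : η ≠ 0 := by
    rintro h
    rw [h] at hη
    simp at hη
  have h5 : (2 * η) ^ (2 * t) = η := by
    rw [mul_pow, ← hη', pow_mul, hη, one_pow, mul_one]
  have hchar : ringChar F ≠ 2 := by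
    intro h
    apply h2
    have h6 : ((2 : ℕ) : F) = 0 := by
      rw [← h]; exact ringChar.Nat.cast_ringChar
    exact_mod_cast h6
  have hsq : IsSquare (2 * η) := by
    rw [FiniteField.isSquare_iff hchar (mul_ne_zero h2 hη0), hq, ht]
    have h7 : (4 * t + 1) ^ 2 / 2 = (2 * t) * (2 * (2 * t + 1)) := by
      have : (4 * t + 1) ^ 2 = 2 * ((2 * t) * (2 * (2 * t + 1))) + 1 := by ring
      rw [this]; omega
    rw [h7, pow_mul, h5, pow_mul, hη, one_pow]
  obtain ⟨s, hs⟩ := hsq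
  refine ⟨s, η, by rw [hs, pow_two], hη, ?_⟩
  have h8 : s * s ^ q = (s * s) ^ (2 * t) * (s * s) := by
    rw [ht, ← pow_two, ← pow_mul]
    ring
  rw [h8, ← hs, h5]
  linear_combination 2 * hη

/-- `CoreRow` for `SU_n(q)`, `q = 1 mod 4` -/
theorem coreRow_su_one {F : Type} [Field F] [Fintype F] {p : ℕ} [Fact p.Prime] [CharP F p] {n q : ℕ}
    (hq : Fintype.card F = q ^ 2) (h4 : q % 4 = 1) (hn : 3 ≤ n) (hn4 : n ≠ 4) : CoreRow p (Cfsg.SU n F q) := by
  have hpp : p.Prime := Fact.out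
  -- `q` is a power of `p`
  obtain ⟨f, hf⟩ : ∃ f, q = p ^ f := by
    obtain ⟨e, -, he⟩ := FiniteField.card F p
    have h1 : q ∣ p ^ (e : ℕ) := by
      rw [← he, hq]; exact dvd_pow_self q two_ne_zero
    obtain ⟨f, -, hf⟩ := (Nat.dvd_prime_pow hpp).1 h1
    exact ⟨f, hf⟩
  have hodd : Odd q := by
    rw [Nat.odd_iff]; omega
  have hadd : ∀ x y : F, (x + y) ^ q = x ^ q + y ^ q := fun x y => by
    rw [hf]; exact add_pow_char_pow x y p f
  have h2q : (2 : F) ^ q = 2 := by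
    rw [← one_add_one_eq_two, hadd, one_pow]
  have h2 : (2 : F) ≠ 0 := by
    intro h
    have h5 : p ∣ 2 := by
      rw [← CharP.cast_eq_zero_iff F p]
      exact_mod_cast h
    have h6 := (Nat.prime_dvd_prime_iff_eq hpp Nat.prime_two).1 h5
    rw [h6] at hf
    rcases Nat.eq_zero_or_pos f with h0 | h0
    · rw [h0, pow_zero] at hf
      have h7 : 1 < Fintype.card F := Fintype.one_lt_card
      rw [hq, hf] at h7
      norm_num at h7
    · have h7 : 2 ∣ q := by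
        rw [hf]; exact dvd_pow_self 2 h0.ne'
      omega
  obtain ⟨s, d, hs, hd, hsq⟩ := exists_sd hq h4 h2 h2q
  obtain ⟨e⟩ := exists_equiv n
  let ρ : Cfsg.SU n F q →* Matrix ((Fin 2 × Fin (n / 2)) ⊕ Fin (n % 2)) ((Fin 2 × Fin (n / 2)) ⊕ Fin (n % 2)) F :=
    ((Matrix.reindexAlgEquiv F F e : Matrix (Fin n) (Fin n) F ≃ₐ[F] _) : Matrix (Fin n) (Fin n) F →* _).comp
      ((Cfsg.slToMat n F).comp (Cfsg.SU n F q).subtype)
  refine coreRow_planes (m := n / 2) (k := n % 2) (by omega) (by omega) h2 hs hd ρ ?_ ?_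
  · intro x y hxy
    have h1 : Cfsg.slToMat n F x = Cfsg.slToMat n F y := (Matrix.reindexAlgEquiv F F e).injective hxy
    exact Subtype.ext (Subtype.ext h1)
  · intro A ε hA hε hdet
    have hdet' : ((bd A ε).submatrix e e).det = 1 := by
      rw [Matrix.det_submatrix_equiv_self, det_bd, hdet]
    have hAP : ∀ j, Pres q (A j) := by
      intro j
      obtain ⟨i, l, h5⟩ := hA j
      rw [h5]
      exact ((pres_wM h2 hodd hadd h2q hsq).pow i).mul ((pres_rM hodd).pow l)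
    have hε' : ε * ε ^ q = 1 := by
      rcases hε with h | h
      · rw [h, one_pow, one_mul]
      · rw [h, hodd.neg_one_pow]; ring
    refine ⟨⟨⟨(bd A ε).submatrix e e, hdet'⟩, ?_⟩, ?_⟩
    · intro u v
      show Cfsg.hermForm n F q (Matrix.mulVec ((bd A ε).submatrix e e) u) (Matrix.mulVec ((bd A ε).submatrix e e) v) = _
      unfold Cfsg.hermForm
      have h5 := bd_pres (k := n % 2) hAP hε' (u ∘ e.symm) (v ∘ e.symm)
      have h6 : ∀ w : Fin n → F, Matrix.mulVec ((bd A ε).submatrix e e) w = (bd A ε).mulVec (w ∘ e.symm) ∘ e := by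
        intro w
        rw [Matrix.submatrix_mulVec_equiv]
      rw [h6, h6]
      have h7 := Equiv.sum_comp e (fun x => (bd A ε).mulVec (u ∘ e.symm) x * ((bd A ε).mulVec (v ∘ e.symm) x) ^ q)
      have h8 := Equiv.sum_comp e (fun x => (u ∘ e.symm) x * ((v ∘ e.symm) x) ^ q)
      simp only [Function.comp_apply, Equiv.symm_apply_apply] at h7 h8 ⊢
      rw [h7]
      refine Eq.trans ?_ h8.symm
      exact h5
    · show Matrix.reindexAlgEquiv F F e ((bd A ε).submatrix e e) = bd A ε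
      rw [Matrix.coe_reindexAlgEquiv, Matrix.reindex_apply, Matrix.submatrix_submatrix]
      simp

end Cfsg.Agent.H442.Hall.Plane
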